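import Mathlib
import Cfsg.Prelude.Def_ClassicalGeometry
import Cfsg.Agent.ClGeo.Symp

set_option autoImplicit false

/-! Block matrices in the symplectic group: the Levi subgroup `GL_m`, the parabolic stabilising the
standard maximal totally isotropic subspace. -/

namespace Cfsg.Agent.ClGeo

open Matrix

section
variable {F : Type*} [Field F] {m : ℕ}

/-- `A ↦ diag(A, A⁻ᵀ)`. -/
noncomputable def leviHom (m : ℕ) (F : Type*) [Field F] :
    Matrix.GeneralLinearGroup (Fin m) F →* Matrix.symplecticGroup (Fin m) F where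
  toFun A := ⟨fromBlocks (A : Matrix (Fin m) (Fin m) F) 0 0 (((A⁻¹ : GL (Fin m) F) : Matrix (Fin m) (Fin m) F))ᵀ, by
    rw [SymplecticGroup.fromBlocks_mem_iff]
    refine ⟨by simp, by simp, ?_⟩
    rw [Matrix.transpose_zero, Matrix.zero_mul, sub_zero, ← Matrix.transpose_mul, ← Units.val_mul,
      inv_mul_cancel, Units.val_one, Matrix.transpose_one]⟩
  map_one' := by
    apply Subtype.ext
    simp [fromBlocks_one]
  map_mul' A B := by
    apply Subtype.ext
    simp [fromBlocks_multiply, Matrix.transpose_mul]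

theorem leviHom_coe (A : Matrix.GeneralLinearGroup (Fin m) F) :
    ((leviHom m F A : Matrix.symplecticGroup (Fin m) F) : Matrix (Fin m ⊕ Fin m) (Fin m ⊕ Fin m) F) =
      fromBlocks (A : Matrix (Fin m) (Fin m) F) 0 0 (((A⁻¹ : GL (Fin m) F) : Matrix (Fin m) (Fin m) F))ᵀ := rfl

theorem leviHom_injective : Function.Injective (leviHom m F) := by
  intro A B h
  have h1 := congrArg Subtype.val h
  rw [leviHom_coe, leviHom_coe, fromBlocks_inj] at h1
  exact Units.ext h1.1

/-- A symplectic matrix with zero lower left block. -/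
theorem symp_blocks_of_zero {A B D : Matrix (Fin m) (Fin m) F}
    (h : fromBlocks A B 0 D ∈ Matrix.symplecticGroup (Fin m) F) :
    Aᵀ * D = 1 ∧ Bᵀ * D = Dᵀ * B := by
  rw [SymplecticGroup.fromBlocks_mem_iff] at h
  refine ⟨?_, h.2.1⟩
  have := h.2.2
  rwa [Matrix.transpose_zero, Matrix.zero_mul, sub_zero] at this

/-- The standard maximal totally isotropic subspace (as a set). -/
def topSet (m : ℕ) (F : Type*) [Field F] : Set (Fin m ⊕ Fin m → F) :=
  {v | ∀ i : Fin m, v (Sum.inr i) = 0}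

/-- The opposite maximal totally isotropic subspace (as a set). -/
def botSet (m : ℕ) (F : Type*) [Field F] : Set (Fin m ⊕ Fin m → F) :=
  {v | ∀ i : Fin m, v (Sum.inl i) = 0}

theorem mem_stabilizing_topSet (M : Matrix.symplecticGroup (Fin m) F) :
    M ∈ Cfsg.stabilizing (Cfsg.spToMat m F) (topSet m F) ↔
      (M : Matrix (Fin m ⊕ Fin m) (Fin m ⊕ Fin m) F).toBlocks₂₁ = 0 := by
  constructor
  · intro h
    ext i j
    have h1 := (h (Pi.single (Sum.inl j) 1)).1 (by intro i; simp)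
    have h2 := h1 i
    rw [Matrix.toBlocks₂₁, Matrix.of_apply]
    simpa using h2
  · intro h v
    have hM := M.2
    rw [← Matrix.fromBlocks_toBlocks (M : Matrix (Fin m ⊕ Fin m) (Fin m ⊕ Fin m) F), h] at hM
    obtain ⟨hAD, -⟩ := symp_blocks_of_zero hM
    have hmul : ∀ i, ((M : Matrix (Fin m ⊕ Fin m) (Fin m ⊕ Fin m) F) *ᵥ v) (Sum.inr i) =
        ((M : Matrix (Fin m ⊕ Fin m) (Fin m ⊕ Fin m) F).toBlocks₂₂ *ᵥ (v ∘ Sum.inr)) i := by
      intro i
      conv_lhs => rw [← Matrix.fromBlocks_toBlocks (M : Matrix (Fin m ⊕ Fin m) (Fin m ⊕ Fin m) F), h]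
      rw [fromBlocks_mulVec]
      simp
    constructor
    · intro hv i
      change ((M : Matrix (Fin m ⊕ Fin m) (Fin m ⊕ Fin m) F) *ᵥ v) (Sum.inr i) = 0
      rw [hmul]
      have : v ∘ Sum.inr = 0 := funext hv
      rw [this, Matrix.mulVec_zero]
      rfl
    · intro hv
      have h3 : (M : Matrix (Fin m ⊕ Fin m) (Fin m ⊕ Fin m) F).toBlocks₂₂ *ᵥ (v ∘ Sum.inr) = 0 := by
        funext i
        rw [← hmul]
        exact hv i
      have h4 := congrArg (fun x => (M : Matrix (Fin m ⊕ Fin m) (Fin m ⊕ Fin m) F).toBlocks₁₁ᵀ *ᵥ x) h3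
      simp only [Matrix.mulVec_mulVec, hAD, Matrix.one_mulVec, Matrix.mulVec_zero] at h4
      intro i
      exact congrFun h4 i

theorem mem_stabilizing_botSet_of (M : Matrix.symplecticGroup (Fin m) F)
    (h : M ∈ Cfsg.stabilizing (Cfsg.spToMat m F) (botSet m F)) :
      (M : Matrix (Fin m ⊕ Fin m) (Fin m ⊕ Fin m) F).toBlocks₁₂ = 0 := by
  ext i j
  have h1 := (h (Pi.single (Sum.inr j) 1)).1 (by intro i; simp)
  have h2 := h1 i
  rw [Matrix.toBlocks₁₂, Matrix.of_apply]
  simpa using h2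

theorem range_leviHom : (leviHom m F).range =
    Cfsg.stabilizing (Cfsg.spToMat m F) (topSet m F) ⊓ Cfsg.stabilizing (Cfsg.spToMat m F) (botSet m F) := by
  apply le_antisymm
  · rintro _ ⟨A, rfl⟩
    refine Subgroup.mem_inf.2 ⟨?_, ?_⟩
    · rw [mem_stabilizing_topSet, leviHom_coe, toBlocks_fromBlocks₂₁]
    · intro v
      change (∀ i, v (Sum.inl i) = 0) ↔ (∀ i, ((leviHom m F A : Matrix.symplecticGroup (Fin m) F) : Matrix (Fin m ⊕ Fin m) (Fin m ⊕ Fin m) F).mulVec v (Sum.inl i) = 0)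
      rw [leviHom_coe, fromBlocks_mulVec]
      simp only [Matrix.zero_mulVec, add_zero, Sum.elim_inl]
      constructor
      · intro hv i
        have : v ∘ Sum.inl = 0 := funext hv
        rw [this, Matrix.mulVec_zero]
        rfl
      · intro hv
        have h3 : (A : Matrix (Fin m) (Fin m) F) *ᵥ (v ∘ Sum.inl) = 0 := funext hv
        have h4 := congrArg (fun x => ((A⁻¹ : GL (Fin m) F) : Matrix (Fin m) (Fin m) F) *ᵥ x) h3
        simp only [Matrix.mulVec_mulVec, ← Units.val_mul, inv_mul_cancel, Units.val_one,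
          Matrix.one_mulVec, Matrix.mulVec_zero] at h4
        intro i
        exact congrFun h4 i
  · intro M hM
    obtain ⟨h1, h2⟩ := Subgroup.mem_inf.1 hM
    rw [mem_stabilizing_topSet] at h1
    have h2' := mem_stabilizing_botSet_of M h2
    have hM2 := M.2
    have hMeq : (M : Matrix (Fin m ⊕ Fin m) (Fin m ⊕ Fin m) F) =
        fromBlocks (M : Matrix (Fin m ⊕ Fin m) (Fin m ⊕ Fin m) F).toBlocks₁₁ 0 0
          (M : Matrix (Fin m ⊕ Fin m) (Fin m ⊕ Fin m) F).toBlocks₂₂ := by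
      conv_lhs => rw [← Matrix.fromBlocks_toBlocks (M : Matrix (Fin m ⊕ Fin m) (Fin m ⊕ Fin m) F), h1, h2']
    rw [hMeq] at hM2
    obtain ⟨hAD, -⟩ := symp_blocks_of_zero hM2
    set A := (M : Matrix (Fin m ⊕ Fin m) (Fin m ⊕ Fin m) F).toBlocks₁₁ with hA
    set D := (M : Matrix (Fin m ⊕ Fin m) (Fin m ⊕ Fin m) F).toBlocks₂₂ with hD
    have hDA : Dᵀ * A = 1 := by
      have := congrArg Matrix.transpose hAD
      rwa [Matrix.transpose_mul, Matrix.transpose_transpose, Matrix.transpose_one] at this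
    have hAD' : A * Dᵀ = 1 := mul_eq_one_comm.1 hDA
    refine ⟨⟨A, Dᵀ, hAD', hDA⟩, ?_⟩
    apply Subtype.ext
    rw [leviHom_coe, hMeq]
    congr 1

end

end Cfsg.Agent.ClGeo
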